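import Cfsg.Agent.Lib.SmallGroups.DegreeEquation

/-!
The characters of the degree equation of a self-centralising Sylow subgroup of prime order: the
linear relation between their values off that subgroup, and the degrees divisible by the prime.
-/

set_option autoImplicit false

namespace CfsgLib.SmallOrders.PSL33

open Subgroup Cfsg CfsgLib.CharTheory CfsgLib.SmallGroups.SelfCentral

/-- A family of at least `k + 2` sets of size `k + 1` meeting pairwise in `k` points has a common
core of size `k` or consists of all sets of that size in a set of `k + 2` points. -/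
theorem exists_core_or_uniform {α : Type*} [DecidableEq α] {k : ℕ} (F : Finset (Finset α))
    (hcard : ∀ s ∈ F, s.card = k + 1) (hinter : ∀ s ∈ F, ∀ t ∈ F, s ≠ t → (s ∩ t).card = k)
    (hF : k + 2 ≤ F.card) : (∃ C : Finset α, C.card = k ∧ ∀ s ∈ F, C ⊆ s) ∨
      ∃ U : Finset α, U.card = k + 2 ∧ ∀ u ∈ U, U.erase u ∈ F := by
  obtain ⟨s1, h1, s2, h2, hne⟩ := Finset.one_lt_card.mp (show 1 < F.card by omega)
  set C := s1 ∩ s2 with hC
  have hCk : C.card = k := hinter s1 h1 s2 h2 hne
  by_cases hcore : ∀ s ∈ F, C ⊆ s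
  · exact Or.inl ⟨C, hCk, hcore⟩
  push Not at hcore
  obtain ⟨s, hs, hnot⟩ := hcore
  right
  set U := s1 ∪ s2
  have hU : U.card = k + 2 := by
    show (s1 ∪ s2).card = k + 2
    have := Finset.card_union_add_card_inter s1 s2
    rw [hcard s1 h1, hcard s2 h2, hinter s1 h1 s2 h2 hne] at this
    omega
  obtain ⟨c, hcC, hcs⟩ := Finset.not_subset.mp hnot
  have hsub : ∀ s' ∈ F, s' = s1 ∨ s' = s2 → C ⊆ s' := by
    rintro s' - (rfl | rfl)
    · exact Finset.inter_subset_left
    · exact Finset.inter_subset_right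
  have hns1 : s ≠ s1 := fun h => hnot (hsub s hs (Or.inl h))
  have hns2 : s ≠ s2 := fun h => hnot (hsub s hs (Or.inr h))
  have hone : ∀ t ∈ F, s ≠ t → C ⊆ t → t.erase c ⊆ s := by
    intro t ht hst hCt
    have hle : s ∩ t ⊆ t.erase c := fun a ha => by
      obtain ⟨has, hat⟩ := Finset.mem_inter.mp ha
      exact Finset.mem_erase.mpr ⟨fun h => hcs (h ▸ has), hat⟩
    have := Finset.eq_of_subset_of_card_le hle (by
      rw [Finset.card_erase_of_mem (hCt hcC), hcard t ht, hinter s hs t ht hst]; omega)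
    exact this ▸ Finset.inter_subset_left
  have hsU : s = U.erase c := by
    refine (Finset.eq_of_subset_of_card_le ?_ ?_).symm
    · intro a ha
      obtain ⟨hac, haU⟩ := Finset.mem_erase.mp ha
      rcases Finset.mem_union.mp haU with h | h
      · exact hone s1 h1 hns1 Finset.inter_subset_left (Finset.mem_erase.mpr ⟨hac, h⟩)
      · exact hone s2 h2 hns2 Finset.inter_subset_right (Finset.mem_erase.mpr ⟨hac, h⟩)
    · rw [Finset.card_erase_of_mem (Finset.mem_union_left _ (Finset.inter_subset_left hcC)), hU, hcard s hs]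
      omega
  have hall : ∀ s' ∈ F, s' ⊆ U := by
    intro s' hs'
    by_cases hC' : C ⊆ s'
    · intro a ha
      by_cases hac : a = c
      · exact hac ▸ Finset.mem_union_left _ (Finset.inter_subset_left hcC)
      · have hne' : s ≠ s' := fun h => hnot (h ▸ hC')
        exact (Finset.mem_erase.mp (hsU ▸ hone s' hs' hne' hC' (Finset.mem_erase.mpr ⟨hac, ha⟩))).2
    · obtain ⟨c', hc'C, hc's'⟩ := Finset.not_subset.mp hC'
      have h' : ∀ t ∈ F, C ⊆ t → s' ≠ t := fun t _ hCt h => hC' (h ▸ hCt)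
      intro a ha
      by_contra haU
      have hlt : (s' ∩ s1).card < k + 1 := by rw [hinter s' hs' s1 h1 (h' s1 h1 Finset.inter_subset_left)]; omega
      have e1 : s1.erase c' ⊆ s' := by
        have hle : s' ∩ s1 ⊆ s1.erase c' := fun b hb => by
          obtain ⟨hbs, hbt⟩ := Finset.mem_inter.mp hb
          exact Finset.mem_erase.mpr ⟨fun h => hc's' (h ▸ hbs), hbt⟩
        have := Finset.eq_of_subset_of_card_le hle (by
          rw [Finset.card_erase_of_mem (Finset.inter_subset_left hc'C), hcard s1 h1,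
            hinter s' hs' s1 h1 (h' s1 h1 Finset.inter_subset_left)]; omega)
        exact this ▸ Finset.inter_subset_left
      have e2 : s2.erase c' ⊆ s' := by
        have hle : s' ∩ s2 ⊆ s2.erase c' := fun b hb => by
          obtain ⟨hbs, hbt⟩ := Finset.mem_inter.mp hb
          exact Finset.mem_erase.mpr ⟨fun h => hc's' (h ▸ hbs), hbt⟩
        have := Finset.eq_of_subset_of_card_le hle (by
          rw [Finset.card_erase_of_mem (Finset.inter_subset_right hc'C), hcard s2 h2,
            hinter s' hs' s2 h2 (h' s2 h2 Finset.inter_subset_right)]; omega)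
        exact this ▸ Finset.inter_subset_left
      have hsub' : insert a (U.erase c') ⊆ s' := by
        intro b hb
        rcases Finset.mem_insert.mp hb with rfl | hb
        · exact ha
        · obtain ⟨hbc, hbU⟩ := Finset.mem_erase.mp hb
          rcases Finset.mem_union.mp hbU with h | h
          · exact e1 (Finset.mem_erase.mpr ⟨hbc, h⟩)
          · exact e2 (Finset.mem_erase.mpr ⟨hbc, h⟩)
      have hcle := Finset.card_le_card hsub'
      rw [Finset.card_insert_of_notMem (fun h => haU (Finset.mem_erase.mp h).2),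
        Finset.card_erase_of_mem (Finset.mem_union_left _ (Finset.inter_subset_left hc'C)), hU, hcard s' hs'] at hcle
      omega
  refine ⟨U, hU, fun u hu => ?_⟩
  have heq : F = U.powersetCard (k + 1) := by
    refine Finset.eq_of_subset_of_card_le (fun s' hs' =>
      Finset.mem_powersetCard.mpr ⟨hall s' hs', hcard s' hs'⟩) ?_
    rw [Finset.card_powersetCard, hU, Nat.choose_succ_self_right]
    omega
  rw [heq, Finset.mem_powersetCard]
  exact ⟨Finset.erase_subset _ _, by rw [Finset.card_erase_of_mem hu, hU]; omega⟩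

universe u

variable {G : Type u} [Group G] [Fintype G] [IsSimpleGroup G]

/-- The degree equation with the characters occurring in it, the relation off the Sylow subgroup,
and the degrees divisible by the prime. -/
theorem degree_data (hG : ¬ IsMulCommutative G) {p e : ℕ} [hp : Fact p.Prime] (P : Sylow p G)
    (hP : Nat.card ↥(P : Subgroup G) = p)
    (hC : Nat.card ↥(centralizer ((P : Subgroup G) : Set G)) = p)
    (hN : Nat.card ↥(normalizer ((P : Subgroup G) : Set G)) = p * e)
    (he2 : 2 ≤ e) (he3 : e ≤ 3) {t : ℕ} (ht : t * e = p - 1) (hte : e + 1 ≤ t) :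
    ∃ (L : Finset (IrrCharacter G × ℤ)) (deg : IrrCharacter G → ℕ) (x : ℕ) (ε : ℤ),
      L.card = e - 1 ∧
      (∀ c ∈ L, (c.2 = 1 ∨ c.2 = -1) ∧ 1 < deg c.1 ∧ deg c.1 ∣ Nat.card G ∧ (p : ℤ) ∣ (deg c.1 : ℤ) - c.2) ∧
      (ε = 1 ∨ ε = -1) ∧ 1 < x ∧ x ∣ Nat.card G ∧ (p : ℤ) ∣ (x : ℤ) + e * ε ∧
      1 + ∑ c ∈ L, c.2 * deg c.1 + ε * x = 0 ∧
      1 + ∑ c ∈ L, deg c.1 ^ 2 + t * x ^ 2 ≤ Nat.card G ∧
      (∀ ψ : IrrCharacter G, (ψ : G → ℂ) 1 = deg ψ) ∧
      (∀ c ∈ L, c.1 ≠ trivIrr G) ∧
      (∀ y : G, (∀ z ∈ (P : Subgroup G), z ≠ 1 → ¬ IsConj y z) →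
        ∃ ψw : IrrCharacter G, deg ψw = x ∧
          1 + ∑ c ∈ L, (c.2 : ℂ) * (c.1 : G → ℂ) y + (ε : ℂ) * (ψw : G → ℂ) y = 0) ∧
      (1 + ∑ c ∈ L, deg c.1 ^ 2 + t * x ^ 2 < Nat.card G → ∃ ψ : IrrCharacter G, p ∣ deg ψ) := by
  classical
  have : Finite (IrrCharacter G) := Nat.finite_of_card_ne_zero (by
    rw [card_irrCharacter]; exact Nat.card_pos.ne')
  have := Fintype.ofFinite (IrrCharacter G)
  haveI := Fintype.ofFinite ↥(P : Subgroup G)
  obtain ⟨deg, ι, _, rel, n, hdeg, hsq, hι, htriv, hzero, hrefl, hin, hout, hclass, hcong, hform⟩ :=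
    exists_vectors_char P hP hC hN
  set one := trivIrr G with hone
  have hnorm : ∀ i, ∑ ψ ∈ Finset.univ.erase one, n i ψ * n i ψ = e := by
    intro i
    have h := hin i i (hrefl i)
    rw [← Finset.add_sum_erase _ _ (Finset.mem_univ one), htriv] at h
    linarith
  have hval : ∀ i ψ, ψ ≠ one → n i ψ = 0 ∨ n i ψ = 1 ∨ n i ψ = -1 := by
    intro i ψ hψ
    have h1 := Finset.single_le_sum (f := fun φ => n i φ * n i φ) (fun φ _ => mul_self_nonneg _)
      (Finset.mem_erase.mpr ⟨hψ, Finset.mem_univ ψ⟩)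
    rw [hnorm i] at h1
    have he' : (e : ℤ) ≤ 3 := by exact_mod_cast he3
    have h2 : n i ψ * n i ψ ≤ 3 := le_trans h1 he'
    have h3 : n i ψ < 2 := by nlinarith
    have h4 : -2 < n i ψ := by nlinarith
    omega
  let sup : ι → Finset (IrrCharacter G) := fun i => (Finset.univ.erase one).filter fun ψ => n i ψ ≠ 0
  let S : ι → Finset (IrrCharacter G × ℤ) := fun i => (sup i).image fun ψ => (ψ, n i ψ)
  have hmemS : ∀ i (c : IrrCharacter G × ℤ), c ∈ S i ↔ c.1 ≠ one ∧ n i c.1 = c.2 ∧ c.2 ≠ 0 := by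
    intro i c
    simp only [S, sup, Finset.mem_image, Finset.mem_filter, Finset.mem_erase, Finset.mem_univ, and_true]
    constructor
    · rintro ⟨ψ, ⟨h1, h2⟩, rfl⟩; exact ⟨h1, rfl, h2⟩
    · rintro ⟨h1, h2, h3⟩; exact ⟨c.1, ⟨h1, by rw [h2]; exact h3⟩, by rw [h2]⟩
  have hScard : ∀ i, (S i).card = e := by
    intro i
    rw [Finset.card_image_of_injective _ (fun a b h => congrArg Prod.fst h)]
    have h := hnorm i
    rw [← Finset.sum_filter_add_sum_filter_not (Finset.univ.erase one) (fun ψ => n i ψ ≠ 0),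
      Finset.sum_eq_zero (s := Finset.filter (fun ψ => ¬ n i ψ ≠ 0) _) (fun ψ hψ => by
        rw [not_not.mp (Finset.mem_filter.mp hψ).2, mul_zero]), add_zero,
      Finset.sum_congr rfl (g := fun _ => (1 : ℤ)) (fun ψ hψ => by
        obtain ⟨h1, h2⟩ := Finset.mem_filter.mp hψ
        rcases hval i ψ (Finset.mem_erase.mp h1).1 with h' | h' | h' <;> rw [h'] <;> first | rfl | exact absurd h' h2)] at h
    rw [Finset.sum_const, nsmul_one] at h
    exact_mod_cast h
  -- agreements and disagreements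
  have hagree : ∀ i j, (∑ ψ, n i ψ * n j ψ : ℤ) = 1 + ((S i ∩ S j).card : ℤ) -
      ((Finset.univ.erase one).filter fun ψ => n i ψ = -n j ψ ∧ n i ψ ≠ 0).card := by
    intro i j
    rw [← Finset.add_sum_erase _ _ (Finset.mem_univ one), htriv, htriv, one_mul, add_sub_assoc]
    congr 1
    have hA : (S i ∩ S j).card = ((Finset.univ.erase one).filter fun ψ => n i ψ = n j ψ ∧ n i ψ ≠ 0).card := by
      rw [← Finset.card_image_of_injective ((Finset.univ.erase one).filter fun ψ => n i ψ = n j ψ ∧ n i ψ ≠ 0)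
        (f := fun ψ => (ψ, n i ψ)) (fun a b h => congrArg Prod.fst h)]
      congr 1
      ext ⟨ψ, z⟩
      simp only [Finset.mem_inter, hmemS, Finset.mem_image, Finset.mem_filter, Finset.mem_erase, Finset.mem_univ,
        and_true, Prod.mk.injEq]
      constructor
      · rintro ⟨⟨h1, h2, h3⟩, -, h4, -⟩; exact ⟨ψ, ⟨h1, h2.trans h4.symm, h2 ▸ h3⟩, rfl, h2⟩
      · rintro ⟨φ, ⟨h1, h2, h3⟩, rfl, rfl⟩; exact ⟨⟨h1, rfl, h3⟩, h1, h2.symm, h3⟩
    rw [hA, Finset.card_filter, Finset.card_filter]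
    push_cast
    rw [← Finset.sum_sub_distrib]
    refine Finset.sum_congr rfl fun ψ hψ => ?_
    have hψ' := (Finset.mem_erase.mp hψ).1
    rcases hval i ψ hψ' with h | h | h <;> rcases hval j ψ hψ' with h' | h' | h' <;> rw [h, h'] <;> norm_num
  have hsame : ∀ i j, rel i j → S i = S j := by
    intro i j hij
    have h := hagree i j
    rw [hin i j hij] at h
    have hle := Finset.card_le_card (Finset.inter_subset_left : S i ∩ S j ⊆ S i)
    rw [hScard] at hle
    have hii : (S i ∩ S j).card = e := by omega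
    exact (Finset.eq_of_subset_of_card_le Finset.inter_subset_left (by rw [hScard, hii])).symm.trans
      (Finset.eq_of_subset_of_card_le Finset.inter_subset_right (by rw [hScard, hii]))
  have hdisj : ∀ i j, ¬ rel i j → (S i ∩ S j).card = e - 1 ∧
      ∀ ψ, ψ ≠ one → n i ψ = -n j ψ → n i ψ = 0 := by
    intro i j hij
    have h := hagree i j
    rw [hout i j hij] at h
    have hsum : (S i ∩ S j).card + ((Finset.univ.erase one).filter fun ψ => n i ψ = -n j ψ ∧ n i ψ ≠ 0).card ≤ e := by
      rw [← hScard i, ← Finset.card_image_of_injective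
        ((Finset.univ.erase one).filter fun ψ => n i ψ = -n j ψ ∧ n i ψ ≠ 0)
        (f := fun ψ => (ψ, n i ψ)) (fun a b h => congrArg Prod.fst h), ← Finset.card_union_of_disjoint]
      · refine Finset.card_le_card (Finset.union_subset Finset.inter_subset_left fun c hc => ?_)
        obtain ⟨ψ, hψ, rfl⟩ := Finset.mem_image.mp hc
        obtain ⟨h1, -, h3⟩ := Finset.mem_filter.mp hψ
        exact (hmemS i _).mpr ⟨(Finset.mem_erase.mp h1).1, rfl, h3⟩
      · rw [Finset.disjoint_left]
        intro c hc hc'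
        obtain ⟨ψ, hψ, rfl⟩ := Finset.mem_image.mp hc'
        obtain ⟨-, h4, -⟩ := (hmemS j _).mp (Finset.mem_inter.mp hc).2
        obtain ⟨-, h2, h3⟩ := Finset.mem_filter.mp hψ
        simp only at h4
        omega
    refine ⟨by omega, fun ψ hψ hneg => by_contra fun h0 => ?_⟩
    have hpos : 0 < ((Finset.univ.erase one).filter fun ψ => n i ψ = -n j ψ ∧ n i ψ ≠ 0).card :=
      Finset.card_pos.mpr ⟨ψ, Finset.mem_filter.mpr ⟨Finset.mem_erase.mpr ⟨hψ, Finset.mem_univ _⟩, hneg, h0⟩⟩
    omega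
  have hiff : ∀ i j, S i = S j ↔ rel i j := by
    refine fun i j => ⟨fun h => by_contra fun hr => ?_, hsame i j⟩
    have := (hdisj i j hr).1
    rw [h, Finset.inter_self, hScard] at this
    omega
  let F := Finset.univ.image S
  have hfib : ∀ i, (Finset.univ.filter fun j => S j = S i).card = e := by
    intro i
    rw [← hclass i, Nat.card_eq_fintype_card, Fintype.card_subtype]
    congr 1
    ext j
    simp only [Finset.mem_filter, Finset.mem_univ, true_and]
    rw [eq_comm, hiff]
  have hFt : F.card = t := by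
    have h := Finset.card_eq_sum_card_fiberwise (f := S) (t := F) (s := Finset.univ)
      (fun i _ => Finset.mem_image_of_mem S (Finset.mem_univ i))
    rw [Finset.sum_const_nat (m := e) (fun s hs => by
      obtain ⟨i, -, rfl⟩ := Finset.mem_image.mp hs; exact hfib i), Finset.card_univ, ← Nat.card_eq_fintype_card, hι, ← ht] at h
    exact (Nat.eq_of_mul_eq_mul_right (by omega) h).symm
  obtain ⟨k, rfl⟩ : ∃ k, e = k + 1 := ⟨e - 1, by omega⟩
  obtain ⟨C, hCk, hCsub⟩ : ∃ C : Finset (IrrCharacter G × ℤ), C.card = k ∧ ∀ s ∈ F, C ⊆ s := by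
    refine (exists_core_or_uniform (k := k) F
      (fun s hs => by obtain ⟨i, -, rfl⟩ := Finset.mem_image.mp hs; exact hScard i)
      (fun s hs s' hs' hne => by
        obtain ⟨i, -, rfl⟩ := Finset.mem_image.mp hs
        obtain ⟨j, -, rfl⟩ := Finset.mem_image.mp hs'
        simpa using (hdisj i j fun h => hne (hsame i j h)).1)
      (by rw [hFt]; omega)).resolve_right ?_
    rintro ⟨U, hU, hall⟩
    have hdone : deg one = 1 := by
      have h := (hdeg one).1
      rw [hone, trivIrr_apply] at h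
      exact_mod_cast h.symm
    -- every member of the family has weighted sum `-1`
    have hval' : ∀ s ∈ F, ∑ c ∈ s, c.2 * (deg c.1 : ℤ) = -1 := by
      intro s hs
      obtain ⟨i, -, rfl⟩ := Finset.mem_image.mp hs
      have h := hzero i
      rw [← Finset.add_sum_erase _ _ (Finset.mem_univ one), htriv, hdone, one_mul, Nat.cast_one] at h
      simp only [S]
      rw [Finset.sum_image (fun a _ b _ h => congrArg Prod.fst h), Finset.sum_filter]
      rw [Finset.sum_congr rfl (g := fun ψ => n i ψ * (deg ψ : ℤ)) (fun ψ _ => by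
        by_cases h0 : n i ψ = 0
        · simp [h0]
        · rw [if_pos h0])]
      linarith
    have hcst : ∀ u ∈ U, u.2 * (deg u.1 : ℤ) = ∑ c ∈ U, c.2 * (deg c.1 : ℤ) + 1 := by
      intro u hu
      have := hval' _ (hall u hu)
      rw [← Finset.add_sum_erase _ _ hu, this]
      ring
    have htot := Finset.sum_congr rfl hcst
    rw [Finset.sum_const, hU, nsmul_eq_mul] at htot
    push_cast at htot
    have hk : (k : ℤ) = 1 ∨ (k : ℤ) = 2 := by omega
    rcases hk with hk | hk <;> rw [hk] at htot <;> omega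
  have hCall : ∀ i, C ⊆ S i := fun i => hCsub _ (Finset.mem_image_of_mem S (Finset.mem_univ i))
  have hex : ∀ i, ∃ c, S i \ C = {c} := by
    intro i
    refine Finset.card_eq_one.mp ?_
    rw [Finset.card_sdiff_of_subset (hCall i), hScard, hCk]
    omega
  choose w hw using hex
  have hwS : ∀ i, w i ∈ S i ∧ w i ∉ C := fun i =>
    Finset.mem_sdiff.mp (by rw [hw i]; exact Finset.mem_singleton_self _)
  have hsplit : ∀ i, ∑ ψ, n i ψ * deg ψ = deg one + ∑ c ∈ C, c.2 * deg c.1 + (w i).2 * deg (w i).1 := by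
    intro i
    rw [← Finset.add_sum_erase _ _ (Finset.mem_univ one), htriv, one_mul, add_assoc]
    congr 1
    rw [← Finset.sum_singleton (fun c : IrrCharacter G × ℤ => c.2 * (deg c.1 : ℤ)) (w i), ← hw i,
      add_comm, Finset.sum_sdiff (hCall i)]
    simp only [S]
    rw [Finset.sum_image (fun a _ b _ h => congrArg Prod.fst h), Finset.sum_filter]
    refine Finset.sum_congr rfl fun ψ _ => ?_
    by_cases h : n i ψ = 0
    · simp [h]
    · rw [if_pos h]
  have hdone : deg one = 1 := by
    have h := (hdeg one).1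
    rw [hone, trivIrr_apply] at h
    exact_mod_cast h.symm
  have hne : Nonempty ι := (Finite.card_pos_iff).mp (by rw [hι]; have := hp.out.two_le; omega)
  obtain ⟨i₀⟩ := hne
  have hsign : ∀ i, ∀ c ∈ S i, (c.2 = 1 ∨ c.2 = -1) ∧ c.1 ≠ one := fun i c hc => by
    obtain ⟨h1, h2, h3⟩ := (hmemS i c).mp hc
    exact ⟨(h2 ▸ hval i c.1 h1).resolve_left h3, h1⟩
  have heq : ∀ i, (1 : ℤ) + ∑ c ∈ C, c.2 * deg c.1 + (w i).2 * deg (w i).1 = 0 := fun i => by
    rw [← hzero i, hsplit i, hdone, Nat.cast_one]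
  have hsame_deg : ∀ i, deg (w i).1 = deg (w i₀).1 := by
    intro i
    have h1 := heq i; have h2 := heq i₀
    have hp1 := (hdeg (w i).1).2.1
    have hp2 := (hdeg (w i₀).1).2.1
    rcases (hsign i _ (hwS i).1).1 with h | h <;> rcases (hsign i₀ _ (hwS i₀).1).1 with h' | h' <;>
      rw [h] at h1 <;> rw [h'] at h2 <;> omega
  have hcoreval : ∀ c ∈ C, ∀ i, n i c.1 = c.2 := fun c hc i => ((hmemS i c).mp (hCall i hc)).2.1
  have hwinj : ∀ s ∈ F, ∃ i, S i = s := fun s hs => by
    obtain ⟨i, -, rfl⟩ := Finset.mem_image.mp hs; exact ⟨i, rfl⟩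
  have : Nonempty ι := ⟨i₀⟩
  choose! rep hrep using hwinj
  let Cset := C.image Prod.fst
  let Wset := F.image fun s => (w (rep s)).1
  have hCinj : Cset.card = C.card := Finset.card_image_of_injOn fun a ha b hb hab =>
    Prod.ext hab (by rw [← hcoreval a ha i₀, ← hcoreval b hb i₀, hab])
  have hWinj : Wset.card = t := by
    rw [← hFt]
    refine Finset.card_image_of_injOn fun s hs s' hs' hss => ?_
    by_contra hne'
    have hnr : ¬ rel (rep s) (rep s') := fun hr => hne' (by rw [← hrep s hs, ← hrep s' hs', hsame _ _ hr])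
    obtain ⟨h1, h2, h3⟩ := (hmemS _ _).mp (hwS (rep s)).1
    obtain ⟨-, h2', h3'⟩ := (hmemS _ _).mp (hwS (rep s')).1
    rw [← hss] at h2'
    by_cases hz : (w (rep s)).2 = (w (rep s')).2
    · have hsub : insert (w (rep s)) C ⊆ S (rep s) ∩ S (rep s') := Finset.insert_subset
        (Finset.mem_inter.mpr ⟨(hwS _).1, (Prod.ext hss hz : w (rep s) = w (rep s')) ▸ (hwS _).1⟩)
        (Finset.subset_inter (hCall _) (hCall _))
      have hc := Finset.card_le_card hsub
      rw [Finset.card_insert_of_notMem (hwS _).2, hCk, (hdisj _ _ hnr).1] at hc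
      omega
    · refine h3 (h2 ▸ (hdisj _ _ hnr).2 _ h1 ?_)
      rcases (hsign _ _ (hwS (rep s)).1).1 with ha | ha <;>
        rcases (hsign _ _ (hwS (rep s')).1).1 with hb | hb <;> omega
  have hdis : Disjoint Cset Wset := by
    rw [Finset.disjoint_left]
    intro ψ hψ hψ'
    obtain ⟨c, hc, rfl⟩ := Finset.mem_image.mp hψ
    obtain ⟨s, hs, hcs⟩ := Finset.mem_image.mp hψ'
    obtain ⟨-, h2, -⟩ := (hmemS _ _).mp (hwS (rep s)).1
    have h4 := hcoreval c hc (rep s)
    rw [← hcs, h2] at h4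
    exact (hwS (rep s)).2 ((Prod.ext hcs h4 : w (rep s) = c) ▸ hc)
  have hnot1 : one ∉ Cset ∪ Wset := by
    intro h
    rcases Finset.mem_union.mp h with h | h
    · obtain ⟨c, hc, hc'⟩ := Finset.mem_image.mp h
      exact (hsign i₀ c (hCall i₀ hc)).2 hc'
    · obtain ⟨s, hs, hc'⟩ := Finset.mem_image.mp h
      exact (hsign _ _ (hwS (rep s)).1).2 hc'
  refine ⟨C, deg, deg (w i₀).1, (w i₀).2, hCk.trans (by omega), fun c hc => ⟨(hsign i₀ c (hCall i₀ hc)).1,
    one_lt_degree hG (hsign i₀ c (hCall i₀ hc)).2 (hdeg c.1).1 (hdeg c.1).2.1, (hdeg c.1).2.2, ?_⟩,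
    (hsign i₀ _ (hwS i₀).1).1, one_lt_degree hG (hsign i₀ _ (hwS i₀).1).2 (hdeg _).1 (hdeg _).2.1,
    (hdeg _).2.2, ?_, heq i₀, ?_, fun ψ => (hdeg ψ).1, fun c hc => (hsign i₀ c (hCall i₀ hc)).2, ?_, ?_⟩
  · have h := hcong c.1
    rw [Finset.sum_congr rfl (fun i _ => hcoreval c hc i), Finset.sum_const, Finset.card_univ,
      ← Nat.card_eq_fintype_card, hι, nsmul_eq_mul, Nat.cast_sub hp.out.one_le] at h
    obtain ⟨k', hk'⟩ := h
    exact ⟨k' - c.2, by push_cast at hk'; linear_combination hk'⟩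
  · have h := hcong (w i₀).1
    rw [Finset.sum_eq_multiset_sum] at h
    rw [← Finset.sum_eq_multiset_sum] at h
    have hz : ∀ j, S j ≠ S i₀ → n j (w i₀).1 = 0 := by
      intro j hj
      by_contra h0
      obtain ⟨h1, h2, h3⟩ := (hmemS i₀ _).mp (hwS i₀).1
      have hnr : ¬ rel i₀ j := fun hr => hj (hsame _ _ hr).symm
      rcases hval j (w i₀).1 h1 with h' | h' | h'
      · exact h0 h'
      all_goals
        by_cases heq' : n i₀ (w i₀).1 = n j (w i₀).1
        · have hin' : w i₀ ∈ S j := (hmemS j _).mpr ⟨h1, heq'.symm.trans h2, h3⟩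
          have hsub : insert (w i₀) C ⊆ S i₀ ∩ S j := Finset.insert_subset
            (Finset.mem_inter.mpr ⟨(hwS i₀).1, hin'⟩) (Finset.subset_inter (hCall i₀) (hCall j))
          have hc := Finset.card_le_card hsub
          rw [Finset.card_insert_of_notMem (hwS i₀).2, hCk, (hdisj i₀ j hnr).1] at hc
          omega
        · refine h3 (h2 ▸ (hdisj i₀ j hnr).2 _ h1 ?_)
          rcases hval i₀ (w i₀).1 h1 with h'' | h'' | h'' <;> omega
    have hsum : ∑ j, n j (w i₀).1 = ((k + 1 : ℕ) : ℤ) * (w i₀).2 := by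
      rw [← hfib i₀, ← nsmul_eq_mul, ← Finset.sum_const,
        ← Finset.sum_subset (Finset.subset_univ (Finset.univ.filter fun j => S j = S i₀))
          (fun j _ hj => hz j (by simpa using hj))]
      refine Finset.sum_congr rfl fun j hj => ?_
      exact ((hmemS j _).mp (by rw [(Finset.mem_filter.mp hj).2]; exact (hwS i₀).1)).2.1
    rw [hsum] at h
    exact h
  · -- the squares
    rw [← hsq]
    refine le_trans (le_of_eq ?_) (Finset.sum_le_sum_of_subset (f := fun ψ => deg ψ ^ 2)
      (Finset.subset_univ (insert one (Cset ∪ Wset))))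
    rw [Finset.sum_insert hnot1, Finset.sum_union hdis, hdone, one_pow, add_assoc]
    congr 1
    rw [Finset.sum_image (fun a ha b hb hab => Prod.ext hab (by rw [← hcoreval a ha i₀, ← hcoreval b hb i₀, hab]))]
    congr 1
    rw [Finset.sum_const_nat (m := deg (w i₀).1 ^ 2), hWinj]
    intro ψ hψ
    obtain ⟨s, -, rfl⟩ := Finset.mem_image.mp hψ
    simp only [hsame_deg]
  · intro y hy
    refine ⟨(w i₀).1, rfl, ?_⟩
    obtain ⟨μ, -, hμ⟩ := hform i₀
    have hcol : ∀ z : ↥(P : Subgroup G),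
        ∑ ψ : IrrCharacter G, (1 - (μ z : ℂ)) * ((starRingEnd ℂ) ((ψ : G → ℂ) z) * (ψ : G → ℂ) y) = 0 := by
      intro z
      rw [← Finset.mul_sum]
      rcases eq_or_ne z 1 with rfl | hz
      · simp
      · rw [Finset.sum_congr rfl fun ψ _ => mul_comm _ _, sum_mul_conj,
          if_neg (hy z z.2 (by simpa using hz)), mul_zero]
    have hsum : ∑ ψ : IrrCharacter G, (n i₀ ψ : ℂ) * (ψ : G → ℂ) y = 0 := by
      simp only [← hμ, classInner, mul_assoc, Finset.sum_mul]
      rw [← Finset.mul_sum, Finset.sum_comm, Finset.sum_eq_zero (fun z _ => hcol z), mul_zero]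
    rw [← Finset.add_sum_erase _ _ (Finset.mem_univ one), htriv, Int.cast_one, one_mul, hone,
      trivIrr_apply] at hsum
    rw [← hone] at hsum
    rw [← hsum, add_assoc]
    congr 1
    rw [← Finset.sum_singleton (fun c : IrrCharacter G × ℤ => (c.2 : ℂ) * (c.1 : G → ℂ) y) (w i₀), ← hw i₀,
      add_comm, Finset.sum_sdiff (hCall i₀)]
    simp only [S]
    rw [Finset.sum_image (fun a _ b _ h => congrArg Prod.fst h), Finset.sum_filter]
    refine Finset.sum_congr rfl fun ψ _ => ?_
    by_cases h : n i₀ ψ = 0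
    · simp [h]
    · rw [if_pos h]
  · intro hlt
    by_contra hno
    push Not at hno
    have hall : ∀ ψ : IrrCharacter G, ψ ∈ insert one (Cset ∪ Wset) := by
      intro ψ
      by_contra hψ
      refine hno ψ ?_
      have hz : ∀ i, n i ψ = 0 := by
        intro i
        by_contra h0
        have hψ1 : ψ ≠ one := fun h => hψ (h ▸ Finset.mem_insert_self _ _)
        have hmem : (ψ, n i ψ) ∈ S i := (hmemS i _).mpr ⟨hψ1, rfl, h0⟩
        refine hψ (Finset.mem_insert_of_mem ?_)
        by_cases hC' : (ψ, n i ψ) ∈ C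
        · exact Finset.mem_union_left _ (Finset.mem_image.mpr ⟨_, hC', rfl⟩)
        · refine Finset.mem_union_right _ (Finset.mem_image.mpr ⟨S i, Finset.mem_image_of_mem S (Finset.mem_univ i), ?_⟩)
          have hh : (ψ, n i ψ) ∈ S (rep (S i)) \ C := Finset.mem_sdiff.mpr
            ⟨(hrep _ (Finset.mem_image_of_mem S (Finset.mem_univ i))).symm ▸ hmem, hC'⟩
          rw [hw, Finset.mem_singleton] at hh
          exact (congrArg Prod.fst hh).symm
      have h := hcong ψ
      rw [Finset.sum_eq_zero (fun i _ => hz i), add_zero] at h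
      exact_mod_cast h
    rw [← hsq, Finset.eq_univ_of_forall hall |>.symm, Finset.sum_insert hnot1, Finset.sum_union hdis, hdone,
      one_pow] at hlt
    rw [Finset.sum_image (fun a ha b hb hab => Prod.ext hab (by rw [← hcoreval a ha i₀, ← hcoreval b hb i₀, hab])),
      Finset.sum_const_nat (s := Wset) (m := deg (w i₀).1 ^ 2) (fun ψ hψ => by
        obtain ⟨s, -, rfl⟩ := Finset.mem_image.mp hψ
        simp only [hsame_deg]), hWinj] at hlt
    omega

end CfsgLib.SmallOrders.PSL33
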